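import Cfsg.Agent.Char.Virtual
import Cfsg.Agent.Char.Basic

/-!
Generalized characters of norm two vanishing at the identity.
-/

set_option autoImplicit false

open scoped ComplexConjugate

namespace Cfsg.Agent.AGHall

open Cfsg.Agent.Char

variable {G : Type*} [Group G] [Fintype G]

open Classical in
/-- The inner product of two differences. -/
theorem classInner_sub_sub (a b c e : Cfsg.IrrCharacter G) :
    Cfsg.classInner ((a : G → ℂ) - (b : G → ℂ)) ((c : G → ℂ) - (e : G → ℂ)) =
      (if a = c then (1 : ℂ) else 0) + (if b = e then 1 else 0)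
        - (if a = e then 1 else 0) - (if b = c then 1 else 0) := by
  simp only [classInner_sub_left, classInner_sub_right, classInner_irrCharacter]
  ring

theorem pair_of_norm_two {θ : G → ℂ} (hθ : Cfsg.IsGeneralizedCharacter G θ) (h1 : θ 1 = 0)
    (h2 : Cfsg.classInner θ θ = 2) :
    ∃ a b : Cfsg.IrrCharacter G, a ≠ b ∧ θ = (a : G → ℂ) - (b : G → ℂ) ∧
      (a : G → ℂ) 1 = (b : G → ℂ) 1 := by
  classical
  choose x hx using isGeneralizedCharacter_classInner_int hθ
  have hcl := isGeneralizedCharacter_isClassFunction hθ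
  have hsum : ∑ ψ, x ψ * x ψ = 2 := by
    have := classInner_eq_sum_mul_conj (b := θ) hcl
    rw [h2] at this
    simp only [hx, map_intCast] at this
    exact_mod_cast this.symm
  choose d hd hd' using fun ψ : Cfsg.IrrCharacter G => irr_one_pos ψ.2
  have hdeg : ∑ ψ, x ψ * (d ψ : ℤ) = 0 := by
    have e := congrFun (eq_sum_classInner_smul hcl) 1
    rw [h1, Finset.sum_apply] at e
    simp only [Pi.smul_apply, smul_eq_mul, hx, hd'] at e
    exact_mod_cast e.symm
  set s := Finset.univ.filter fun ψ => x ψ ≠ 0 with hs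
  have hss : ∀ (f : Cfsg.IrrCharacter G → ℤ), (∀ ψ, x ψ = 0 → f ψ = 0) →
      ∑ ψ, f ψ = ∑ ψ ∈ s, f ψ := fun f hf => by
    rw [hs, Finset.sum_filter_of_ne]
    intro ψ _ hne h0
    exact hne (hf ψ h0)
  have hle : ∀ ψ ∈ s, 1 ≤ x ψ * x ψ := fun ψ hψ => by
    rcases lt_or_gt_of_ne (Finset.mem_filter.1 hψ).2 with h | h <;> nlinarith
  rw [hss _ (fun ψ h => by rw [h, mul_zero])] at hsum
  rw [hss _ (fun ψ h => by rw [h, zero_mul])] at hdeg
  have hcard : s.card ≤ 2 := by
    have := Finset.card_nsmul_le_sum s _ 1 hle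
    rw [hsum, nsmul_eq_mul, mul_one] at this
    exact_mod_cast this
  interval_cases hc : s.card
  · rw [Finset.card_eq_zero.1 hc] at hsum
    simp at hsum
  · obtain ⟨a, ha⟩ := Finset.card_eq_one.1 hc
    rw [ha, Finset.sum_singleton, mul_eq_zero] at hdeg
    have := Finset.mem_filter.1 (show a ∈ s by rw [ha]; exact Finset.mem_singleton_self a)
    rcases hdeg with h | h
    · exact absurd h this.2
    · have := hd a; omega
  · obtain ⟨a, b, hab, he⟩ := Finset.card_eq_two.1 hc
    rw [he, Finset.sum_pair hab] at hdeg hsum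
    have ha := hle a (by rw [he]; simp)
    have hb := hle b (by rw [he]; simp)
    have exp : θ = (x a : ℂ) • (a : G → ℂ) + (x b : ℂ) • (b : G → ℂ) := by
      conv_lhs => rw [eq_sum_classInner_smul hcl]
      rw [← Finset.sum_pair hab (f := fun ψ => (x ψ : ℂ) • (ψ : G → ℂ)), ← he, hs,
        Finset.sum_filter_of_ne]
      · exact Finset.sum_congr rfl fun ψ _ => by rw [hx]
      · intro ψ _ hne h0
        exact hne (by simp [h0])
    have da := hd a
    have db := hd b
    rcases mul_self_eq_one_iff.1 (show x a * x a = 1 by omega) with e1 | e1 <;>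
      rcases mul_self_eq_one_iff.1 (show x b * x b = 1 by omega) with e2 | e2 <;>
      simp only [e1, e2] at hdeg exp
    · omega
    · refine ⟨a, b, hab, ?_, ?_⟩
      · rw [exp]; simp [sub_eq_add_neg]
      · rw [hd' a, hd' b]
        have : d a = d b := by omega
        rw [this]
    · refine ⟨b, a, hab.symm, ?_, ?_⟩
      · rw [exp]; simp [sub_eq_add_neg, add_comm]
      · rw [hd' a, hd' b]
        have : d a = d b := by omega
        rw [this]
    · omega

/-- Two norm-two differences with inner product one share one term. -/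
theorem triple_of_inner_one {θ θ' : G → ℂ} (hθ : Cfsg.IsGeneralizedCharacter G θ)
    (hθ' : Cfsg.IsGeneralizedCharacter G θ') (h1 : θ 1 = 0) (h1' : θ' 1 = 0)
    (h2 : Cfsg.classInner θ θ = 2) (h2' : Cfsg.classInner θ' θ' = 2)
    (h : Cfsg.classInner θ θ' = 1) :
    ∃ (ε : ℤ) (x : Fin 3 → Cfsg.IrrCharacter G), (ε = 1 ∨ ε = -1) ∧ Function.Injective x ∧
      θ = (ε : ℂ) • ((x 0 : G → ℂ) - (x 1 : G → ℂ)) ∧ θ' = (ε : ℂ) • ((x 0 : G → ℂ) - (x 2 : G → ℂ)) ∧
      ∀ i, (x i : G → ℂ) 1 = (x 0 : G → ℂ) 1 := by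
  classical
  obtain ⟨a, b, hab, rfl, hd⟩ := pair_of_norm_two hθ h1 h2
  obtain ⟨c, e, hce, rfl, hd'⟩ := pair_of_norm_two hθ' h1' h2'
  rw [classInner_sub_sub] at h
  by_cases hac : a = c
  · subst hac
    have hbe : b ≠ e := by
      rintro rfl
      simp [hab, hab.symm] at h
    refine ⟨1, ![a, b, e], Or.inl rfl, ?_, by simp, by simp, ?_⟩
    · intro i j hij
      fin_cases i <;> fin_cases j <;>
        first
          | rfl
          | (simp [hab, hab.symm, hce, hce.symm, hbe, hbe.symm] at hij)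
    · intro i; fin_cases i <;> simp [hd, ← hd']
  · have hbe : b = e := by
      by_contra hbe
      rw [if_neg hac, if_neg hbe] at h
      split_ifs at h <;> norm_num at h
    subst hbe
    refine ⟨-1, ![b, a, c], Or.inr rfl, ?_, ?_, ?_, ?_⟩
    · intro i j hij
      fin_cases i <;> fin_cases j <;>
        first
          | rfl
          | (simp [hab, hab.symm, hce, hce.symm, hac, Ne.symm hac] at hij)
    · simp [neg_sub, sub_eq_add_neg, add_comm]
    · simp [neg_sub, sub_eq_add_neg, add_comm]
    · intro i; fin_cases i <;> simp [hd, hd']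

/-- Orthogonal differences of equal degree have no common term. -/
theorem disjoint_of_inner_zero {a b c e : Cfsg.IrrCharacter G} (hab : a ≠ b) (hce : c ≠ e)
    (h : Cfsg.classInner ((a : G → ℂ) - (b : G → ℂ)) ((c : G → ℂ) - (e : G → ℂ)) = 0) :
    a ≠ c ∧ a ≠ e ∧ b ≠ c ∧ b ≠ e := by
  classical
  rw [classInner_sub_sub] at h
  refine ⟨?_, ?_, ?_, ?_⟩ <;> rintro rfl <;>
    simp [hab, hab.symm, hce, hce.symm] at h <;> split_ifs at h <;> norm_num at h

end Cfsg.Agent.AGHall
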