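import Cfsg.Agent.Char.Virtual
import Cfsg.Agent.CharInd.Induced
import Cfsg.Agent.CharInd.Linear
import Mathlib

/-!
Characters of a split extension of an abelian normal subgroup induced from linear characters.
-/

set_option autoImplicit false

open Subgroup
open scoped ComplexConjugate

namespace Cfsg.Agent.AGHall

variable {L : Type*} [Group L] [Finite L]

/-- A split extension of an abelian normal 2-subgroup by a group of odd order. -/
structure Split (L : Type*) [Group L] where
  S : Subgroup L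
  W : Subgroup L
  normal : S.Normal
  compl : IsComplement' S W
  comm : ∀ x ∈ S, ∀ y ∈ S, x * y = y * x
  two : IsPGroup 2 S
  wodd : Odd (Nat.card W)

theorem conj_hom_apply {X : Type*} [Group X] [Finite X] (f : X →* ℂˣ) (x : X) :
    conj ((f x : ℂ)) = ((f x⁻¹ : ℂˣ) : ℂ) := by
  have h1 : ‖(f x : ℂ)‖ = 1 := by
    refine Complex.norm_eq_one_of_pow_eq_one (n := orderOf x) ?_ (orderOf_pos x).ne'
    rw [← Units.val_pow_eq_pow_val, ← map_pow, pow_orderOf_eq_one, map_one, Units.val_one]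
  rw [map_inv, Units.val_inv_eq_inv_val, Complex.inv_eq_conj h1]

theorem sum_hom_mul_conj {X : Type*} [Group X] [Fintype X] (f g : X →* ℂˣ) [Decidable (f = g)] :
    ∑ x : X, (f x : ℂ) * conj ((g x : ℂ)) = if f = g then (Nat.card X : ℂ) else 0 := by
  classical
  have h : ∀ x, (f x : ℂ) * conj ((g x : ℂ)) = (((f / g) x : ℂˣ) : ℂ) := fun x => by
    rw [conj_hom_apply, MonoidHom.div_apply, div_eq_mul_inv, Units.val_mul, map_inv]
  simp only [h]
  split_ifs with hfg
  · subst hfg
    simp [Nat.card_eq_fintype_card]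
  · have hne : f / g ≠ 1 := fun e => hfg (div_eq_one.1 e)
    obtain ⟨a, ha⟩ : ∃ a, (f / g) a ≠ 1 := by
      by_contra hc
      push Not at hc
      exact hne (MonoidHom.ext hc)
    have e : (((f / g) a : ℂˣ) : ℂ) * ∑ x : X, (((f / g) x : ℂˣ) : ℂ) =
        ∑ x : X, (((f / g) x : ℂˣ) : ℂ) := by
      rw [Finset.mul_sum]
      exact Fintype.sum_equiv (Equiv.mulLeft a) _ _ fun x => by simp [div_mul_div_comm]
    have ha' : (((f / g) a : ℂˣ) : ℂ) ≠ 1 := fun e' => ha (Units.ext e')
    by_contra hs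
    exact ha' (mul_right_cancel₀ hs (e.trans (one_mul _).symm))

namespace Split

variable (D : Split L)

theorem exists_parts (x : L) : ∃ s : D.S, ∃ w : D.W, x = s * w := by
  obtain ⟨⟨s, w⟩, h, -⟩ := D.compl.existsUnique x
  exact ⟨s, w, h.symm⟩

/-- The component in `S`. -/
noncomputable def sP (x : L) : D.S := (D.exists_parts x).choose

/-- The component in `W`. -/
noncomputable def wP (x : L) : D.W := (D.exists_parts x).choose_spec.choose

theorem parts (x : L) : x = (D.sP x : L) * D.wP x := (D.exists_parts x).choose_spec.choose_spec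

theorem parts_unique {x : L} (s : D.S) (w : D.W) (h : x = s * w) : D.sP x = s ∧ D.wP x = w := by
  obtain ⟨z, -, hz⟩ := D.compl.existsUnique x
  have e := (hz ⟨D.sP x, D.wP x⟩ (D.parts x).symm).trans (hz ⟨s, w⟩ h.symm).symm
  exact ⟨congrArg Prod.fst e, congrArg Prod.snd e⟩

/-- Conjugation on `S` by an element of `L`. -/
def act (g : L) : D.S →* D.S where
  toFun s := ⟨g * s * g⁻¹, D.normal.conj_mem _ s.2 g⟩
  map_one' := Subtype.ext (by simp)
  map_mul' a b := Subtype.ext (by simp [mul_assoc])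

/-- Conjugate of a linear character of `S`. -/
def twist (g : L) (lam : D.S →* ℂˣ) : D.S →* ℂˣ := lam.comp (D.act g⁻¹)

theorem twist_apply (g : L) (lam : D.S →* ℂˣ) (s : D.S) :
    D.twist g lam s = lam ⟨g⁻¹ * s * g, by simpa using D.normal.conj_mem _ s.2 g⁻¹⟩ := by
  simp [twist, act]

theorem twist_mul (g h : L) (lam : D.S →* ℂˣ) :
    D.twist (g * h) lam = D.twist g (D.twist h lam) := by
  ext s
  simp [twist, act, mul_assoc]

theorem twist_one (lam : D.S →* ℂˣ) : D.twist 1 lam = lam := by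
  ext s
  simp [twist, act]

/-- The stabilizer in `W` of a linear character. -/
def stab (lam : D.S →* ℂˣ) : Subgroup L where
  carrier := {w | w ∈ D.W ∧ D.twist w lam = lam}
  one_mem' := ⟨D.W.one_mem, D.twist_one lam⟩
  mul_mem' := by
    rintro a b ⟨ha, ha'⟩ ⟨hb, hb'⟩
    exact ⟨D.W.mul_mem ha hb, by rw [D.twist_mul, hb', ha']⟩
  inv_mem' := by
    rintro a ⟨ha, ha'⟩
    refine ⟨D.W.inv_mem ha, ?_⟩
    conv_lhs => rw [← ha', ← D.twist_mul, inv_mul_cancel, D.twist_one]

theorem stab_le (lam : D.S →* ℂˣ) : D.stab lam ≤ D.W := fun _ h => h.1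

variable (lam : D.S →* ℂˣ) (U : Subgroup L) (eta : U →* ℂˣ)

open Classical in
/-- The linear function on `S U`, extended by zero. -/
noncomputable def F (x : L) : ℂ :=
  if h : (D.wP x : L) ∈ U then (lam (D.sP x) : ℂ) * (eta ⟨D.wP x, h⟩ : ℂ) else 0

theorem F_apply {x : L} (s : D.S) {u : L} (hu : u ∈ U) (huW : u ∈ D.W) (hx : x = s * u) :
    D.F lam U eta x = (lam s : ℂ) * (eta ⟨u, hu⟩ : ℂ) := by
  obtain ⟨h1, h2⟩ := D.parts_unique s ⟨u, huW⟩ hx
  have hm : (D.wP x : L) ∈ U := by rw [h2]; exact hu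
  rw [F, dif_pos hm, h1,
    show (⟨(D.wP x : L), hm⟩ : U) = ⟨u, hu⟩ from Subtype.ext (congrArg (fun z : D.W => (z : L)) h2)]

theorem F_notMem {x : L} (s : D.S) {w : L} (hw : w ∉ U) (hwW : w ∈ D.W) (hx : x = s * w) :
    D.F lam U eta x = 0 := by
  obtain ⟨-, h2⟩ := D.parts_unique s ⟨w, hwW⟩ hx
  rw [F, dif_neg]
  rw [h2]; exact hw

variable [Fintype L]

/-- The induced character. -/
noncomputable def zeta (g : L) : ℂ :=
  ((Nat.card D.S : ℂ) * Nat.card U)⁻¹ * ∑ x : L, D.F lam U eta (x⁻¹ * g * x)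

theorem mem_sup (hU : U ≤ D.W) {x : L} : x ∈ D.S ⊔ U ↔ (D.wP x : L) ∈ U := by
  haveI := D.normal
  constructor
  · intro hx
    rw [← SetLike.mem_coe, normal_mul] at hx
    obtain ⟨s, hs, u, hu, rfl⟩ := hx
    rw [(D.parts_unique ⟨s, hs⟩ ⟨u, hU hu⟩ rfl).2]
    exact hu
  · intro hx
    rw [D.parts x]
    exact mul_mem (mem_sup_left (D.sP x).2) (mem_sup_right hx)

theorem card_sup (hU : U ≤ D.W) : Nat.card ↥(D.S ⊔ U) = Nat.card D.S * Nat.card U := by
  rw [← Nat.card_prod]
  refine Nat.card_congr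
    { toFun := fun x => (D.sP x, ⟨D.wP x, (D.mem_sup U hU).1 x.2⟩)
      invFun := fun p => ⟨(p.1 : L) * p.2, mul_mem (mem_sup_left p.1.2) (mem_sup_right p.2.2)⟩
      left_inv := fun x => Subtype.ext (D.parts x).symm
      right_inv := fun p => by
        obtain ⟨h1, h2⟩ := D.parts_unique (x := (p.1 : L) * p.2) p.1 ⟨p.2, hU p.2.2⟩ rfl
        exact Prod.ext h1 (Subtype.ext (by simp only; rw [h2])) }

/-- The linear character on `S U`. -/
noncomputable def phi (hU : U ≤ D.stab lam) : ↥(D.S ⊔ U) →* ℂˣ where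
  toFun x := lam (D.sP x) * eta ⟨D.wP x, (D.mem_sup U (hU.trans (D.stab_le lam))).1 x.2⟩
  map_one' := by
    obtain ⟨h1, h2⟩ := D.parts_unique (x := ((1 : ↥(D.S ⊔ U)) : L)) 1 1 (by simp)
    rw [h1, map_one, one_mul, show (⟨(D.wP ((1 : ↥(D.S ⊔ U)) : L) : L), _⟩ : U) = 1 from
      Subtype.ext ((congrArg (fun z : D.W => (z : L)) h2).trans rfl), map_one]
  map_mul' := by
    intro x y
    have hUW := hU.trans (D.stab_le lam)
    set w : L := (D.wP (x : L) : L) with hw
    have hwU : w ∈ U := (D.mem_sup U hUW).1 x.2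
    have hwv : (D.wP (y : L) : L) ∈ U := (D.mem_sup U hUW).1 y.2
    obtain ⟨h1, h2⟩ := D.parts_unique (x := ((x * y : ↥(D.S ⊔ U)) : L))
      (D.sP x * D.act w (D.sP y)) (D.wP x * D.wP y) (by
        rw [Subgroup.coe_mul, Subgroup.coe_mul, Subgroup.coe_mul]
        conv_lhs => rw [D.parts x, D.parts y]
        simp [act, hw, mul_assoc])
    have hinv : lam (D.act w (D.sP y)) = lam (D.sP y) := by
      have := DFunLike.congr_fun (hU (inv_mem hwU)).2 (D.sP y)
      rw [Split.twist, inv_inv] at this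
      exact this
    rw [h1, map_mul lam, hinv, show (⟨(D.wP ((x * y : ↥(D.S ⊔ U)) : L) : L), _⟩ : U) =
      ⟨w, hwU⟩ * ⟨D.wP (y : L), hwv⟩ from Subtype.ext ((congrArg (fun z : D.W => (z : L)) h2).trans rfl),
      map_mul eta]
    exact mul_mul_mul_comm _ _ _ _

theorem extend_phi (hU : U ≤ D.stab lam) (x : L) :
    Cfsg.extendByZero (D.S ⊔ U) (fun k => (D.phi lam U eta hU k : ℂ)) x = D.F lam U eta x := by
  by_cases hx : x ∈ D.S ⊔ U
  · rw [CharInd.extendByZero_mem _ _ hx, F, dif_pos ((D.mem_sup U (hU.trans (D.stab_le lam))).1 hx)]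
    simp [phi]
  · rw [CharInd.extendByZero_notMem _ _ hx, F,
      dif_neg fun h => hx ((D.mem_sup U (hU.trans (D.stab_le lam))).2 h)]

theorem zeta_eq_indFun (hU : U ≤ D.stab lam) :
    D.zeta lam U eta = Cfsg.indFun (D.S ⊔ U) (fun k => (D.phi lam U eta hU k : ℂ)) := by
  funext g
  rw [CharInd.indFun_apply, zeta, D.card_sup U (hU.trans (D.stab_le lam))]
  simp [D.extend_phi lam U eta hU]

theorem isCharacter_zeta (hU : U ≤ D.stab lam) : Cfsg.IsCharacter L (D.zeta lam U eta) := by
  classical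
  rw [D.zeta_eq_indFun lam U eta hU]
  exact CharInd.isCharacter_indFun _ (Char.isCharacter_of_irr (CharInd.irr_of_linHom _))

theorem sum_parts {f : L → ℂ} [Fintype D.S] [Fintype D.W] :
    ∑ x : L, f x = ∑ w : D.W, ∑ s : D.S, f (s * w) := by
  rw [← Finset.sum_product']
  symm
  refine Fintype.sum_bijective (fun p : D.W × D.S => (p.2 : L) * p.1) ?_ _ _ fun p => rfl
  constructor
  · intro p p' h
    have h' : (p.2 : L) * p.1 = p'.2 * p'.1 := h
    obtain ⟨a1, a2⟩ := D.parts_unique p.2 p.1 rfl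
    obtain ⟨b1, b2⟩ := D.parts_unique p'.2 p'.1 h'
    exact Prod.ext (a2.symm.trans b2) (a1.symm.trans b1)
  · exact fun x => ⟨(D.wP x, D.sP x), (D.parts x).symm⟩

/-- Values on `S`. -/
theorem zeta_apply_mem (s : D.S) [Fintype D.W] :
    D.zeta lam U eta (s : L) = (Nat.card U : ℂ)⁻¹ * ∑ w : D.W, (D.twist w lam s : ℂ) := by
  classical
  haveI := D.normal
  rw [zeta, D.sum_parts]
  have : ∀ (w : D.W) (p : D.S), D.F lam U eta (((p : L) * w)⁻¹ * s * ((p : L) * w)) =
      (D.twist w lam s : ℂ) := by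
    intro w p
    rw [D.F_apply lam U eta ⟨(w : L)⁻¹ * s * w, by simpa using D.normal.conj_mem _ s.2 (w : L)⁻¹⟩
      U.one_mem D.W.one_mem (by
        rw [mul_one]
        calc ((p : L) * w)⁻¹ * s * ((p : L) * w) = (w : L)⁻¹ * ((p : L)⁻¹ * (s * p)) * w := by group
          _ = (w : L)⁻¹ * s * w := by rw [D.comm _ s.2 _ p.2]; group)]
    rw [show (⟨1, U.one_mem⟩ : U) = 1 from rfl, map_one, Units.val_one, mul_one, D.twist_apply]
  simp only [this, Finset.sum_const, Finset.card_univ, nsmul_eq_mul, ← Finset.mul_sum]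
  rw [← Nat.card_eq_fintype_card]
  have : (Nat.card D.S : ℂ) ≠ 0 := Nat.cast_ne_zero.2 Nat.card_pos.ne'
  field_simp

variable (lam' : D.S →* ℂˣ) (U' : Subgroup L) (eta' : U' →* ℂˣ)

open Classical in
/-- Inner product of two induced characters. -/
theorem classInner_zeta (hU : U ≤ D.stab lam) (hU' : U' ≤ D.stab lam') [Fintype D.W] [Fintype U] :
    Cfsg.classInner (D.zeta lam U eta) (D.zeta lam' U' eta') =
      ((Nat.card U : ℂ) * Nat.card U')⁻¹ *
        ∑ w : D.W, if D.twist w lam' = lam then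
          ∑ u : U, if h : (w : L)⁻¹ * u * w ∈ U' then
            (eta u : ℂ) * conj ((eta' ⟨_, h⟩ : ℂ)) else 0
        else 0 := by
  haveI := D.normal
  letI : Fintype D.S := Fintype.ofFinite _
  have hcl := Char.isCharacter_isClassFunction (D.isCharacter_zeta lam' U' eta' hU')
  conv_lhs => rw [D.zeta_eq_indFun lam U eta hU, CharInd.classInner_indFun_left _ _ hcl]
  rw [Cfsg.classInner, D.card_sup U (hU.trans (D.stab_le lam))]
  have hk : ∀ (f : ↥(D.S ⊔ U) → ℂ), ∑ k, f k = ∑ p : D.S, ∑ u : U,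
      f ⟨(p : L) * u, mul_mem (mem_sup_left p.2) (mem_sup_right u.2)⟩ := by
    intro f
    rw [← Finset.sum_product']
    symm
    refine Fintype.sum_bijective (fun x : D.S × U =>
      (⟨(x.1 : L) * x.2, mul_mem (mem_sup_left x.1.2) (mem_sup_right x.2.2)⟩ : ↥(D.S ⊔ U))) ?_ _ _
      fun _ => rfl
    refine (Fintype.bijective_iff_injective_and_card _).2 ⟨?_, ?_⟩
    · intro x y h
      have h' : (x.1 : L) * x.2 = y.1 * y.2 := congrArg Subtype.val h
      have hUW := hU.trans (D.stab_le lam)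
      obtain ⟨a1, a2⟩ := D.parts_unique x.1 ⟨x.2, hUW x.2.2⟩ rfl
      obtain ⟨b1, b2⟩ := D.parts_unique y.1 ⟨y.2, hUW y.2.2⟩ h'
      exact Prod.ext (a1.symm.trans b1)
        (Subtype.ext (congrArg (fun z : D.W => (z : L)) (a2.symm.trans b2)))
    · rw [Fintype.card_prod, ← Nat.card_eq_fintype_card, ← Nat.card_eq_fintype_card,
        ← Nat.card_eq_fintype_card, D.card_sup U (hU.trans (D.stab_le lam))]
  rw [hk]
  have hphi : ∀ (p : D.S) (u : U), (D.phi lam U eta hU
      ⟨(p : L) * u, mul_mem (mem_sup_left p.2) (mem_sup_right u.2)⟩ : ℂ) =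
        (lam p : ℂ) * (eta u : ℂ) := by
    intro p u
    have := D.F_apply lam U eta p u.2 ((hU u.2).1) (x := (p : L) * u) rfl
    rw [← D.extend_phi lam U eta hU,
      CharInd.extendByZero_mem _ _ (mul_mem (mem_sup_left p.2) (mem_sup_right u.2))] at this
    exact this
  have hval : ∀ (p : D.S) (u : U) (w : D.W) (s : D.S),
      (lam p : ℂ) * (eta u : ℂ) * conj (D.F lam' U' eta'
          (((s : L) * w)⁻¹ * ((p : L) * u) * ((s : L) * w))) =
      (if h : (w : L)⁻¹ * u * w ∈ U' then (eta u : ℂ) * conj ((eta' ⟨_, h⟩ : ℂ)) else 0) *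
        ((lam p : ℂ) * conj ((D.twist w lam' p : ℂ))) *
          conj (((D.twist w lam' (s⁻¹ * D.act u s)) : ℂˣ) : ℂ) := by
    intro p u w s
    set a : D.S := s⁻¹ * p * D.act u s with ha
    have hx : ((s : L) * w)⁻¹ * ((p : L) * u) * ((s : L) * w) =
        ((⟨(w : L)⁻¹ * a * w, by simpa using D.normal.conj_mem _ a.2 (w : L)⁻¹⟩ : D.S) : L) *
          ((w : L)⁻¹ * u * w) := by
      simp only [ha, act, Subgroup.coe_mul, Subgroup.coe_inv, MonoidHom.coe_mk, OneHom.coe_mk]
      group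
    have hwW : (w : L)⁻¹ * u * w ∈ D.W :=
      D.W.mul_mem (D.W.mul_mem (D.W.inv_mem w.2) (hU u.2).1) w.2
    by_cases h : (w : L)⁻¹ * u * w ∈ U'
    · rw [D.F_apply lam' U' eta' _ h hwW hx, dif_pos h, ← D.twist_apply]
      have hsplit : D.twist w lam' a = D.twist w lam' p * D.twist w lam' (s⁻¹ * D.act u s) := by
        rw [← map_mul, ha]
        congr 1
        apply Subtype.ext
        simp only [Subgroup.coe_mul, Subgroup.coe_inv]
        first
          | rw [D.comm _ (D.S.inv_mem s.2) _ p.2, mul_assoc]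
          | rw [D.comm _ (D.S.inv_mem s.2) _ p.2]
      rw [hsplit, Units.val_mul, map_mul, map_mul]
      ring
    · rw [D.F_notMem lam' U' eta' _ h hwW hx, dif_neg h]
      simp
  calc ((Nat.card D.S * Nat.card U : ℕ) : ℂ)⁻¹ *
      ∑ p : D.S, ∑ u : U, ((D.phi lam U eta hU
        ⟨(p : L) * u, mul_mem (mem_sup_left p.2) (mem_sup_right u.2)⟩ : ℂ) *
          conj (D.zeta lam' U' eta' ((p : L) * u)))
      = ((Nat.card D.S : ℂ) * Nat.card U)⁻¹ * (((Nat.card D.S : ℂ) * Nat.card U')⁻¹ *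
          ∑ p : D.S, ∑ u : U, ∑ w : D.W, ∑ s : D.S,
            (if h : (w : L)⁻¹ * u * w ∈ U' then (eta u : ℂ) * conj ((eta' ⟨_, h⟩ : ℂ)) else 0) *
              ((lam p : ℂ) * conj ((D.twist w lam' p : ℂ))) *
                conj (((D.twist w lam' (s⁻¹ * D.act u s)) : ℂˣ) : ℂ)) := by
        simp only [← hval]
        simp only [hphi, zeta, D.sum_parts, map_mul, map_inv₀, map_natCast, map_sum, Finset.mul_sum]
        push_cast
        refine Finset.sum_congr rfl fun p _ => Finset.sum_congr rfl fun u _ =>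
          Finset.sum_congr rfl fun w _ => Finset.sum_congr rfl fun s _ => ?_
        ring
    _ = ((Nat.card D.S : ℂ) * Nat.card U)⁻¹ * (((Nat.card D.S : ℂ) * Nat.card U')⁻¹ *
          ∑ w : D.W, ∑ u : U, ∑ s : D.S,
            (if h : (w : L)⁻¹ * u * w ∈ U' then (eta u : ℂ) * conj ((eta' ⟨_, h⟩ : ℂ)) else 0) *
              (if lam = D.twist w lam' then (Nat.card D.S : ℂ) else 0) *
                conj (((D.twist w lam' (s⁻¹ * D.act u s)) : ℂˣ) : ℂ)) := by
        congr 2
        simp only [← sum_hom_mul_conj, Finset.sum_mul, Finset.mul_sum]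
        rw [Finset.sum_comm]
        refine Eq.trans (Finset.sum_congr rfl fun u _ => Finset.sum_comm) ?_
        rw [Finset.sum_comm]
        exact Finset.sum_congr rfl fun w _ => Finset.sum_congr rfl fun u _ => Finset.sum_comm
    _ = _ := by
        have key : ∀ w : D.W, (∑ u : U, ∑ s : D.S,
            (if h : (w : L)⁻¹ * u * w ∈ U' then (eta u : ℂ) * conj ((eta' ⟨_, h⟩ : ℂ)) else 0) *
              (if lam = D.twist w lam' then (Nat.card D.S : ℂ) else 0) *
                conj (((D.twist w lam' (s⁻¹ * D.act u s)) : ℂˣ) : ℂ)) =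
            (Nat.card D.S : ℂ) * Nat.card D.S * (if D.twist w lam' = lam then
              ∑ u : U, if h : (w : L)⁻¹ * u * w ∈ U' then
                (eta u : ℂ) * conj ((eta' ⟨_, h⟩ : ℂ)) else 0
            else 0) := by
          intro w
          by_cases hw : D.twist w lam' = lam
          · rw [if_pos hw, Finset.mul_sum]
            refine Finset.sum_congr rfl fun u _ => ?_
            have hone : ∀ s : D.S, ((D.twist w lam' (s⁻¹ * D.act u s) : ℂˣ) : ℂ) = 1 := by
              intro s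
              rw [hw, map_mul, map_inv]
              have := DFunLike.congr_fun (hU (inv_mem u.2)).2 s
              rw [Split.twist, inv_inv] at this
              rw [show lam (D.act u s) = lam s from this, inv_mul_cancel, Units.val_one]
            simp only [hone, if_pos hw.symm, map_one, mul_one, Finset.sum_const, Finset.card_univ,
              nsmul_eq_mul, ← Nat.card_eq_fintype_card]
            ring
          · rw [if_neg hw]
            simp [Ne.symm hw]
        rw [Finset.sum_congr rfl fun w _ => key w, ← Finset.mul_sum]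
        have : (Nat.card D.S : ℂ) ≠ 0 := Nat.cast_ne_zero.2 Nat.card_pos.ne'
        field_simp

end Split

end Cfsg.Agent.AGHall
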