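import Cfsg.Agent.AGHall.Semi
import Cfsg.Agent.Char.Linear

/-!
Families of induced characters of a split extension.
-/

set_option autoImplicit false

open Subgroup
open scoped ComplexConjugate

namespace Cfsg.Agent.AGHall

variable {L : Type*} [Group L] [Finite L]

/-- The extensions of a linear character. -/
def Ext {U V : Subgroup L} (hUV : U ≤ V) (eta : U →* ℂˣ) (eta' : V →* ℂˣ) : Prop :=
  eta'.comp (inclusion hUV) = eta

theorem finite_homs {X : Type*} [Group X] [Finite X] : Finite (X →* ℂˣ) :=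
  Char.monoidHom_complex_finite

theorem card_homs {X : Type*} [Group X] [Finite X] (hc : ∀ a b : X, a * b = b * a) :
    Nat.card (X →* ℂˣ) = Nat.card X := by
  letI : CommGroup X := { (inferInstance : Group X) with mul_comm := hc }
  haveI : NeZero (Monoid.exponent X) := ⟨Monoid.exponent_ne_zero_of_finite⟩
  haveI : HasEnoughRootsOfUnity ℂ (Monoid.exponent X) := inferInstance
  exact CommGroup.card_monoidHom_of_hasEnoughRootsOfUnity X ℂ

theorem exists_hom_ne_one {X : Type*} [Group X] [Finite X] (hc : ∀ a b : X, a * b = b * a) {a : X}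
    (ha : a ≠ 1) : ∃ f : X →* ℂˣ, f a ≠ 1 := by
  letI : CommGroup X := { (inferInstance : Group X) with mul_comm := hc }
  haveI : NeZero (Monoid.exponent X) := ⟨Monoid.exponent_ne_zero_of_finite⟩
  haveI : HasEnoughRootsOfUnity ℂ (Monoid.exponent X) := inferInstance
  exact CommGroup.exists_apply_ne_one_of_hasEnoughRootsOfUnity X ℂ ha

theorem sum_homs_apply {X : Type*} [Group X] [Finite X] (hc : ∀ a b : X, a * b = b * a) (a : X)
    [Fintype (X →* ℂˣ)] [Decidable (a = 1)] :
    ∑ f : X →* ℂˣ, ((f a : ℂˣ) : ℂ) = if a = 1 then (Nat.card X : ℂ) else 0 := by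
  split_ifs with ha
  · subst ha
    simp [← card_homs hc, Nat.card_eq_fintype_card]
  · obtain ⟨g, hg⟩ := exists_hom_ne_one hc ha
    have e : ((g a : ℂˣ) : ℂ) * ∑ f : X →* ℂˣ, ((f a : ℂˣ) : ℂ) =
        ∑ f : X →* ℂˣ, ((f a : ℂˣ) : ℂ) := by
      rw [Finset.mul_sum]
      exact Fintype.sum_equiv (Equiv.mulLeft g) _ _ fun f => by simp
    by_contra hs
    exact hg (Units.ext (mul_right_cancel₀ hs (e.trans (one_mul _).symm)))

theorem exists_ext {U V : Subgroup L} (hUV : U ≤ V) (hc : ∀ a b : V, a * b = b * a)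
    (eta : U →* ℂˣ) : ∃ eta' : V →* ℂˣ, Ext hUV eta eta' := by
  letI : CommGroup V := { (inferInstance : Group V) with mul_comm := hc }
  haveI : NeZero (Monoid.exponent V) := ⟨Monoid.exponent_ne_zero_of_finite⟩
  haveI : HasEnoughRootsOfUnity ℂ (Monoid.exponent V) := inferInstance
  let e : (U.subgroupOf V) ≃* U := subgroupOfEquivOfLe hUV
  obtain ⟨f, hf⟩ := MonoidHom.domRestrict_surjective ℂ (U.subgroupOf V) (eta.comp e.toMonoidHom)
  refine ⟨f, MonoidHom.ext fun u => ?_⟩
  have h := DFunLike.congr_fun hf (e.symm u)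
  simp only [MonoidHom.coe_comp, MulEquiv.coe_toMonoidHom, Function.comp_apply,
    MulEquiv.apply_symm_apply] at h
  rw [← h]
  rfl

open Classical in
theorem sum_ext_apply {U V : Subgroup L} (hUV : U ≤ V) (hc : ∀ a b : V, a * b = b * a)
    [Fintype (V →* ℂˣ)] (eta : U →* ℂˣ) (v : V) :
    (Nat.card U : ℂ) * ∑ e ∈ Finset.univ.filter (Ext hUV eta), ((e v : ℂˣ) : ℂ) =
      (Nat.card V : ℂ) * if h : (v : L) ∈ U then (eta ⟨v, h⟩ : ℂ) else 0 := by
  haveI := finite_homs (X := U)
  letI : Fintype (U →* ℂˣ) := Fintype.ofFinite _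
  letI : Fintype U := Fintype.ofFinite _
  have hcU : ∀ a b : U, a * b = b * a := fun a b => Subtype.ext
    (congrArg Subtype.val (hc (inclusion hUV a) (inclusion hUV b)) :)
  -- `|U| δ(e|U = eta) = Σ_u e(u) conj(eta u)`
  calc (Nat.card U : ℂ) * ∑ e ∈ Finset.univ.filter (Ext hUV eta), ((e v : ℂˣ) : ℂ)
      = ∑ e : V →* ℂˣ, (∑ u : U, (((e.comp (inclusion hUV)) u : ℂˣ) : ℂ) * conj ((eta u : ℂ))) *
          ((e v : ℂˣ) : ℂ) := by
        rw [Finset.sum_filter, Finset.mul_sum]
        refine Finset.sum_congr rfl fun e _ => ?_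
        rw [sum_hom_mul_conj]
        unfold Ext
        split_ifs <;> simp
    _ = ∑ u : U, conj ((eta u : ℂ)) * ∑ e : V →* ℂˣ, ((e (inclusion hUV u * v) : ℂˣ) : ℂ) := by
        simp only [Finset.sum_mul, Finset.mul_sum]
        rw [Finset.sum_comm]
        refine Finset.sum_congr rfl fun u _ => Finset.sum_congr rfl fun e _ => ?_
        rw [map_mul, Units.val_mul, MonoidHom.comp_apply]
        ring
    _ = _ := by
        simp only [sum_homs_apply hc, mul_ite, mul_zero]
        split_ifs with hv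
        · rw [Finset.sum_eq_single (⟨v, hv⟩⁻¹ : U)]
          · rw [if_pos (by apply Subtype.ext; simp), conj_hom_apply, inv_inv]
            ring
          · intro u _ hu
            rw [if_neg]
            intro h
            refine hu ?_
            have h' : (u : L) * v = 1 := congrArg Subtype.val h
            exact Subtype.ext (eq_inv_of_mul_eq_one_left h')
          · simp
        · rw [Finset.sum_eq_zero]
          · simp
          · intro u _
            rw [if_neg]
            intro h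
            have h' : (u : L) * v = 1 := congrArg Subtype.val h
            exact hv (eq_inv_of_mul_eq_one_right h' ▸ U.inv_mem u.2)

open Classical in
theorem card_ext {U V : Subgroup L} (hUV : U ≤ V) (hc : ∀ a b : V, a * b = b * a)
    [Fintype (V →* ℂˣ)] (eta : U →* ℂˣ) :
    Nat.card U * (Finset.univ.filter (Ext hUV eta)).card = Nat.card V := by
  have h := sum_ext_apply hUV hc eta 1
  rw [dif_pos (by simp), show (⟨((1 : V) : L), _⟩ : U) = 1 from Subtype.ext rfl, map_one,
    Units.val_one, mul_one] at h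
  simp only [map_one, Units.val_one, Finset.sum_const, nsmul_eq_mul, mul_one] at h
  exact_mod_cast h

namespace Split

variable (D : Split L)

theorem S_comm (a b : D.S) : a * b = b * a := Subtype.ext (D.comm _ a.2 _ b.2)

theorem exists_fixed {lam : D.S →* ℂˣ} (hl : lam ≠ 1) {U : Subgroup L} (hU : U ≤ D.stab lam) :
    ∃ s : D.S, s ≠ 1 ∧ ∀ u ∈ U, u * s = s * u := by
  classical
  letI : CommGroup D.S := { (inferInstance : Group D.S) with mul_comm := D.S_comm }
  letI : Fintype U := Fintype.ofFinite _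
  obtain ⟨s, hs⟩ : ∃ s, lam s ≠ 1 := by
    by_contra h
    push Not at h
    exact hl (MonoidHom.ext h)
  set σ : D.S := ∏ u : U, D.act u s with hσ
  have hlam : lam σ = lam s ^ Nat.card U := by
    rw [hσ, map_prod]
    have : ∀ u : U, lam (D.act u s) = lam s := fun u => by
      have := DFunLike.congr_fun (hU (inv_mem u.2)).2 s
      rw [Split.twist, inv_inv] at this
      exact this
    simp [this, Nat.card_eq_fintype_card]
  refine ⟨σ, fun h => hs ?_, fun u hu => ?_⟩
  · rw [h, map_one] at hlam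
    obtain ⟨k, hk⟩ := IsPGroup.iff_orderOf.1 D.two s
    have h2 : lam s ^ 2 ^ k = 1 := by rw [← map_pow, ← hk, pow_orderOf_eq_one, map_one]
    have hodd : Odd (Nat.card U) := D.wodd.of_dvd_nat (card_dvd_of_le (hU.trans (D.stab_le lam)))
    have hcop : (Nat.card U).Coprime (2 ^ k) := hodd.coprime_two_right.pow_right k
    have := (pow_gcd_eq_one (a := lam s) (m := Nat.card U) (n := 2 ^ k)).2 ⟨hlam.symm, h2⟩
    rwa [hcop.gcd_eq_one, pow_one] at this
  · have e : D.act u σ = σ := by
      rw [hσ, map_prod]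
      refine Fintype.prod_equiv (Equiv.mulLeft (⟨u, hu⟩ : U)) _ _ fun v => ?_
      apply Subtype.ext
      simp [act, mul_assoc]
    exact mul_inv_eq_iff_eq_mul.1 (congrArg Subtype.val e)

theorem exists_invariant {U : Subgroup L} (hU : U ≤ D.W) {t : D.S} (ht : t * t = 1) (ht1 : t ≠ 1)
    (hfix : ∀ u ∈ U, u * t = t * u) : ∃ mu : D.S →* ℂˣ, U ≤ D.stab mu ∧ mu t ≠ 1 := by
  classical
  letI : Fintype U := Fintype.ofFinite _
  obtain ⟨nu, hnu⟩ := exists_hom_ne_one D.S_comm ht1
  refine ⟨∏ u : U, D.twist u nu, fun v hv => ⟨hU hv, ?_⟩, ?_⟩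
  · rw [show D.twist v (∏ u : U, D.twist u nu) = ∏ u : U, D.twist v (D.twist u nu) from
      MonoidHom.ext fun s => by simp [Split.twist]]
    refine Fintype.prod_equiv (Equiv.mulLeft (⟨v, hv⟩ : U)) _ _ fun u => ?_
    rw [← D.twist_mul]; rfl
  · have : ∀ u : U, D.twist u nu t = nu t := fun u => by
      rw [D.twist_apply]
      congr 1
      apply Subtype.ext
      show (u : L)⁻¹ * t * u = t
      rw [mul_assoc, ← hfix u u.2, inv_mul_cancel_left]
    rw [MonoidHom.finset_prod_apply]
    simp only [this, Finset.prod_const, Finset.card_univ, ← Nat.card_eq_fintype_card]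
    intro h
    apply hnu
    have h2 : nu t ^ 2 = 1 := by rw [← map_pow, sq, ht, map_one]
    have hcop : (Nat.card U).Coprime 2 :=
      (D.wodd.of_dvd_nat (card_dvd_of_le hU)).coprime_two_right
    have := (pow_gcd_eq_one (a := nu t) (m := Nat.card U) (n := 2)).2 ⟨h, h2⟩
    rwa [hcop.gcd_eq_one, pow_one] at this

variable (lam : D.S →* ℂˣ) (U : Subgroup L) (eta : U →* ℂˣ)

open Classical in
theorem F_odd (hU : U ≤ D.stab lam) [Fintype L] {z : L} (hz : Odd (orderOf z)) :
    D.F lam U eta z = if h : (D.wP z : L) ∈ U then (eta ⟨D.wP z, h⟩ : ℂ) else 0 := by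
  rw [F]
  split_ifs with h
  · have hUW := hU.trans (D.stab_le lam)
    have hzK : z ∈ D.S ⊔ U := (D.mem_sup U hUW).2 h
    set m := orderOf z * Nat.card U with hm
    have h1 : D.phi lam U eta hU ⟨z, hzK⟩ ^ m = 1 := by
      rw [← map_pow, show (⟨z, hzK⟩ : ↥(D.S ⊔ U)) ^ m = 1 from
        Subtype.ext (by simp [hm, pow_mul, pow_orderOf_eq_one]), map_one]
    have h2 : eta ⟨D.wP z, h⟩ ^ m = 1 := by
      rw [← map_pow, hm, mul_comm, pow_mul, pow_card_eq_one', one_pow, map_one]
    have h3 : lam (D.sP z) ^ m = 1 := by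
      have : D.phi lam U eta hU ⟨z, hzK⟩ = lam (D.sP z) * eta ⟨D.wP z, h⟩ := rfl
      rwa [this, mul_pow, h2, mul_one] at h1
    obtain ⟨k, hk⟩ := IsPGroup.iff_orderOf.1 D.two (D.sP z)
    have h4 : lam (D.sP z) ^ 2 ^ k = 1 := by rw [← map_pow, ← hk, pow_orderOf_eq_one, map_one]
    have hodd : Odd m := hz.mul (D.wodd.of_dvd_nat (card_dvd_of_le hUW))
    have := (pow_gcd_eq_one (a := lam (D.sP z)) (m := m) (n := 2 ^ k)).2 ⟨h3, h4⟩
    rw [(hodd.coprime_two_right.pow_right k).gcd_eq_one, pow_one] at this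
    rw [this, Units.val_one, one_mul]
  · rfl

variable [Fintype L]

open Classical in
/-- Summing over the extensions gives the same values at elements of odd order. -/
theorem sum_zeta_odd {V : Subgroup L} (hUV : U ≤ V) (hc : ∀ a b : V, a * b = b * a)
    [Fintype (V →* ℂˣ)] (hU : U ≤ D.stab lam) {lam1 : D.S →* ℂˣ} (hV : V ≤ D.stab lam1) {y : L}
    (hy : Odd (orderOf y)) :
    ∑ e ∈ Finset.univ.filter (Ext hUV eta), D.zeta lam1 V e y = D.zeta lam U eta y := by
  have hzo : ∀ x : L, Odd (orderOf (x⁻¹ * y * x)) := fun x => by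
    have := MulEquiv.orderOf_eq (MulAut.conj x⁻¹) y
    simp only [MulAut.conj_apply, inv_inv] at this
    rwa [this]
  simp only [zeta, ← Finset.mul_sum]
  rw [Finset.sum_comm, Finset.mul_sum, Finset.mul_sum]
  refine Finset.sum_congr rfl fun x _ => ?_
  simp only [D.F_odd lam U eta hU (hzo x), fun e => D.F_odd lam1 V e hV (hzo x)]
  have hS : (Nat.card D.S : ℂ) ≠ 0 := Nat.cast_ne_zero.2 Nat.card_pos.ne'
  have hUn : (Nat.card U : ℂ) ≠ 0 := Nat.cast_ne_zero.2 Nat.card_pos.ne'
  have hVn : (Nat.card V : ℂ) ≠ 0 := Nat.cast_ne_zero.2 Nat.card_pos.ne'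
  by_cases hv : (D.wP (x⁻¹ * y * x) : L) ∈ V
  · simp only [dif_pos hv]
    have := sum_ext_apply hUV hc eta ⟨_, hv⟩
    split_ifs with hu
    · rw [dif_pos hu] at this
      field_simp
      linear_combination this
    · rw [dif_neg hu, mul_zero, mul_eq_zero] at this
      rw [(this.resolve_left hUn)]
      simp
  · have hu : (D.wP (x⁻¹ * y * x) : L) ∉ U := fun h => hv (hUV h)
    simp [hv, hu]

omit [Fintype L] in
open Classical in
theorem inner_of_not_conj [Fintype L] (hU : U ≤ D.stab lam) {lam' : D.S →* ℂˣ} {U' : Subgroup L}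
    (eta' : U' →* ℂˣ) (hU' : U' ≤ D.stab lam') (h : ∀ w ∈ D.W, D.twist w lam' ≠ lam) :
    Cfsg.classInner (D.zeta lam U eta) (D.zeta lam' U' eta') = 0 := by
  letI : Fintype D.W := Fintype.ofFinite _
  letI : Fintype U := Fintype.ofFinite _
  rw [D.classInner_zeta lam U eta lam' U' eta' hU hU']
  simp [fun w : D.W => h w w.2]

open Classical in
theorem inner_same (hU : U = D.stab lam) (hc : ∀ a b : U, a * b = b * a) (eta' : U →* ℂˣ) :
    Cfsg.classInner (D.zeta lam U eta) (D.zeta lam U eta') = if eta = eta' then 1 else 0 := by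
  letI : Fintype D.W := Fintype.ofFinite _
  letI : Fintype U := Fintype.ofFinite _
  rw [D.classInner_zeta lam U eta lam U eta' hU.le hU.le, ← Finset.sum_filter]
  have hmem : ∀ w : D.W, D.twist w lam = lam ↔ (w : L) ∈ U := fun w => by
    rw [hU]; exact ⟨fun h => ⟨w.2, h⟩, fun h => h.2⟩
  rw [show ∑ w ∈ Finset.univ.filter (fun w : D.W => D.twist w lam = lam), ∑ u : U,
      (if h : (w : L)⁻¹ * u * w ∈ U then (eta u : ℂ) * conj ((eta' ⟨_, h⟩ : ℂ)) else 0) =
      ∑ w ∈ Finset.univ.filter (fun w : D.W => D.twist w lam = lam), ∑ u : U,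
        (eta u : ℂ) * conj ((eta' u : ℂ)) from ?_, sum_hom_mul_conj, Finset.sum_const, nsmul_eq_mul]
  · have hcard : (Finset.univ.filter fun w : D.W => D.twist w lam = lam).card = Nat.card U := by
      rw [← Fintype.card_subtype, ← Nat.card_eq_fintype_card]
      exact Nat.card_congr
        { toFun := fun w => ⟨(w.1 : L), (hmem w.1).1 w.2⟩
          invFun := fun u => ⟨⟨u, (hU ▸ u.2 : (u : L) ∈ D.stab lam).1⟩, (hmem _).2 u.2⟩
          left_inv := fun w => rfl
          right_inv := fun u => rfl }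
    rw [hcard]
    have hUn : (Nat.card U : ℂ) ≠ 0 := Nat.cast_ne_zero.2 Nat.card_pos.ne'
    split_ifs
    · field_simp
    · simp
  · refine Finset.sum_congr rfl fun w hw => Finset.sum_congr rfl fun u _ => ?_
    have hwU := (hmem w).1 (Finset.mem_filter.1 hw).2
    have e : (w : L)⁻¹ * u * w = u := by
      have := congrArg Subtype.val (hc ⟨w, hwU⟩ u)
      simp only [Subgroup.coe_mul] at this
      rw [mul_assoc, ← this, inv_mul_cancel_left]
    rw [dif_pos (by rw [e]; exact u.2)]
    congr 4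
    exact Subtype.ext e

open Classical in
/-- Summing over all linear characters of `U` gives the multiplicity on `S`. -/
theorem sum_inner_zeta (hU : U ≤ D.stab lam) (hc : ∀ a b : U, a * b = b * a) [Fintype (U →* ℂˣ)]
    [Fintype D.S] {θ : L → ℂ} (hθ : Cfsg.IsClassFunction L θ) :
    ∑ e : U →* ℂˣ, Cfsg.classInner θ (D.zeta lam U e) =
      Cfsg.classInner (fun s : D.S => θ s) (fun s : D.S => (lam s : ℂ)) := by
  letI : Fintype U := Fintype.ofFinite _
  have hUW := hU.trans (D.stab_le lam)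
  have key : ∀ e : U →* ℂˣ, Cfsg.classInner θ (D.zeta lam U e) =
      ((Nat.card D.S : ℂ) * Nat.card U)⁻¹ * ∑ p : D.S, ∑ u : U,
        θ ((p : L) * u) * (conj ((lam p : ℂ)) * conj ((e u : ℂ))) := by
    intro e
    rw [D.zeta_eq_indFun lam U e hU, CharInd.classInner_indFun_right _ _ hθ, Cfsg.classInner,
      D.card_sup U hUW, Nat.cast_mul]
    congr 1
    rw [← Finset.sum_product']
    symm
    refine Fintype.sum_bijective (fun x : D.S × U =>
      (⟨(x.1 : L) * x.2, mul_mem (mem_sup_left x.1.2) (mem_sup_right x.2.2)⟩ : ↥(D.S ⊔ U))) ?_ _ _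
      fun x => ?_
    · refine (Fintype.bijective_iff_injective_and_card _).2 ⟨?_, ?_⟩
      · intro x y h
        have h' : (x.1 : L) * x.2 = y.1 * y.2 := congrArg Subtype.val h
        obtain ⟨a1, a2⟩ := D.parts_unique x.1 ⟨x.2, hUW x.2.2⟩ rfl
        obtain ⟨b1, b2⟩ := D.parts_unique y.1 ⟨y.2, hUW y.2.2⟩ h'
        exact Prod.ext (a1.symm.trans b1)
          (Subtype.ext (congrArg (fun z : D.W => (z : L)) (a2.symm.trans b2)))
      · rw [Fintype.card_prod, ← Nat.card_eq_fintype_card, ← Nat.card_eq_fintype_card,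
          ← Nat.card_eq_fintype_card, D.card_sup U hUW]
    · have := D.F_apply lam U e x.1 x.2.2 (hUW x.2.2) (x := (x.1 : L) * x.2) rfl
      rw [← D.extend_phi lam U e hU, CharInd.extendByZero_mem _ _
        (mul_mem (mem_sup_left x.1.2) (mem_sup_right x.2.2))] at this
      rw [this, map_mul]
  simp only [key, ← Finset.mul_sum]
  rw [Finset.sum_comm, Cfsg.classInner, Finset.mul_sum, Finset.mul_sum]
  refine Finset.sum_congr rfl fun p _ => ?_
  rw [Finset.sum_comm]
  have hinner : ∀ u : U, ∑ e : U →* ℂˣ, θ ((p : L) * u) * (conj ((lam p : ℂ)) * conj ((e u : ℂ))) =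
      θ ((p : L) * u) * conj ((lam p : ℂ)) * if u⁻¹ = 1 then (Nat.card U : ℂ) else 0 := by
    intro u
    simp only [← mul_assoc, ← Finset.mul_sum, conj_hom_apply (x := u), sum_homs_apply hc]
  simp only [hinner, inv_eq_one]
  rw [Finset.sum_eq_single (1 : U) (fun u _ hu => by rw [if_neg hu, mul_zero]) (by simp), if_pos rfl]
  have : (Nat.card U : ℂ) ≠ 0 := Nat.cast_ne_zero.2 Nat.card_pos.ne'
  simp only [Subgroup.coe_one, mul_one]
  field_simp

end Split

end Cfsg.Agent.AGHall
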